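import Cfsg.Agent.H91.U.Defs
import Cfsg.Agent.H91.RankThree
import Cfsg.Agent.H450.UF.Flag

/-!
# Invariant functions on flags are affine functions of the intersection numbers, Hermitian forms (helper91, S2196)

Rank three action of `SU(V)` on `X`, `K` the stabiliser of `x₀`, `r ≠ 0` a function on
`X` orthogonal to the functions invariant under the stabiliser of a totally isotropic flag; `K` has exactly two orbits
on the isotropic points of `V`, one of them `O`. Then (`aff`) every `K`-invariant function on the totally isotropic flags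
`W 1 < ... < W j` is an affine function of the numbers `|O ∩ W i|`.
-/

set_option autoImplicit false
set_option linter.unusedSectionVars false

namespace Cfsg.Agent.H91.U

open Module RankThree

variable {F V : Type*} [Field F] [Fintype F] [AddCommGroup V] [Module F V] [FiniteDimensional F V] [Fintype V]
  {σ : F →+* F} {B : V →ₛₗ[σ] V →ₗ[F] F} {j : ℕ}

variable (B) in
/-- transitivity on flags -/
def Tr1 : Prop := ∀ (j : ℕ) (u u' : Fin j → V), Frame B u → Frame B u' →
  ∃ g ∈ SIso B, ∀ i, (W F u i).map (g : V →ₗ[F] V) = W F u' i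

variable (B) in
/-- transitivity on pairs (flag, isotropic point) with the same position -/
def Tr2 : Prop := ∀ (j : ℕ) (u u' : Fin j → V), Frame B u → Frame B u' → ∀ (v v' : V), v ≠ 0 → B v v = 0 → v' ≠ 0 →
  B v' v' = 0 → cl B u v = cl B u' v' →
  ∃ g ∈ SIso B, (∃ c : F, g v = c • v') ∧ ∀ i, (W F u i).map (g : V →ₗ[F] V) = W F u' i

open Classical in
/-- the sum of a function on a subspace -/
noncomputable def sm (φ : V → ℝ) (C : Submodule F V) : ℝ := ∑ v : V, if v ∈ C then φ v else 0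

theorem telescope (g : ℕ → ℝ) {n N : ℕ} (h : n ≤ N) :
    g n = g N + ∑ i ∈ Finset.range N, if n ≤ i then g i - g (i + 1) else 0 := by
  induction N, h using Nat.le_induction with
  | base =>
    rw [Finset.sum_eq_zero, add_zero]
    intro i hi
    rw [if_neg]
    have := Finset.mem_range.1 hi
    omega
  | succ N hN ih =>
    rw [Finset.sum_range_succ, if_pos hN, ih]
    ring

theorem sum_eq {u : Fin j → V} (hu : Frame B u) {φ c : V → ℝ} (h0 : ∀ v, ¬(v ≠ 0 ∧ B v v = 0) → φ v = 0)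
    (hs : ∑ v, φ v = 0) {g : ℕ → ℝ} (hc : ∀ v, v ≠ 0 → B v v = 0 → c v = g (cl B u v)) :
    ∑ v, φ v * c v = ∑ i ∈ Finset.range (2 * j + 1), (g i - g (i + 1)) * sm φ (Ch B u i) := by
  classical
  have h1 : ∀ v, φ v * c v = φ v * g (2 * j + 1) +
      ∑ i ∈ Finset.range (2 * j + 1), (g i - g (i + 1)) * (if v ∈ Ch B u i then φ v else 0) := by
    intro v
    by_cases hv : v ≠ 0 ∧ B v v = 0
    · rw [hc v hv.1 hv.2, telescope g (cl_le hu v), mul_add, Finset.mul_sum]
      congr 1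
      refine Finset.sum_congr rfl fun i _ => ?_
      simp only [mem_Ch_iff hu]
      split_ifs <;> ring
    · rw [h0 v hv, zero_mul, zero_mul, zero_add, Finset.sum_eq_zero]
      intro i _
      split_ifs <;> rw [mul_zero]
  simp only [h1]
  rw [Finset.sum_add_distrib, ← Finset.sum_mul, hs, zero_mul, zero_add, Finset.sum_comm]
  refine Finset.sum_congr rfl fun i _ => ?_
  rw [← Finset.mul_sum]
  rfl

theorem card_ker (C : Submodule F V) {v : V} (hv : v ∉ perp B C) :
    (Nat.card {z : C // B v z = 0}) * Fintype.card F = Nat.card C := by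
  classical
  let f : C →ₗ[F] F := (B v).comp C.subtype
  have hf : LinearMap.range f = ⊤ := by
    rcases (eq_bot_or_eq_top (LinearMap.range f)) with h | h
    · exfalso
      apply hv
      intro z hz
      have h1 : f ⟨z, hz⟩ ∈ LinearMap.range f := ⟨_, rfl⟩
      rw [h, Submodule.mem_bot] at h1
      exact h1
    · exact h
  have h1 := LinearMap.finrank_range_add_finrank_ker f
  rw [hf, finrank_top, finrank_self] at h1
  have h2 : Nat.card {z : C // B v z = 0} = Nat.card (LinearMap.ker f) := Nat.card_congr (Equiv.refl _)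
  rw [h2, Module.natCard_eq_pow_finrank (K := F), Module.natCard_eq_pow_finrank (K := F) (V := C), ← h1,
    Nat.card_eq_fintype_card, pow_add, pow_one, mul_comm]

theorem mem_perp_span {v z : V} : v ∈ perp B (Submodule.span F {z}) ↔ B v z = 0 := by
  constructor
  · exact fun h => h z (Submodule.mem_span_singleton_self z)
  · intro h w hw
    obtain ⟨c, rfl⟩ := Submodule.mem_span_singleton.1 hw
    rw [map_smul, h, smul_zero]

/-- sums over the orthogonal space of a totally isotropic subspace -/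
theorem perp_sum {φ : V → ℝ} (hs : ∑ v, φ v = 0) {lam : ℝ}
    (hlam : ∀ z, B z z = 0 → sm φ (perp B (Submodule.span F {z})) = lam * φ z) {C : Submodule F V} (hC : TI B C) :
    (Nat.card C : ℝ) * (1 - (Fintype.card F : ℝ)⁻¹) * sm φ (perp B C) = lam * sm φ C := by
  classical
  have h1 : lam * sm φ C = ∑ v, φ v * Nat.card {z : C // B v z = 0} := by
    unfold sm
    rw [Finset.mul_sum]
    have e1 : ∀ z, lam * (if z ∈ C then φ z else 0) = ∑ v, if z ∈ C ∧ B v z = 0 then φ v else 0 := by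
      intro z
      split_ifs with hz
      · rw [← hlam z (hC z hz z hz)]
        unfold sm
        refine Finset.sum_congr rfl fun v _ => ?_
        simp only [mem_perp_span, hz, true_and]
      · simp only [hz, false_and, if_false, Finset.sum_const_zero, mul_zero]
    simp only [e1]
    rw [Finset.sum_comm]
    refine Finset.sum_congr rfl fun v _ => ?_
    rw [← Finset.sum_filter, Finset.sum_const, nsmul_eq_mul, mul_comm]
    congr 2
    rw [Nat.card_eq_fintype_card, ← Fintype.card_subtype]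
    refine Fintype.card_congr ⟨fun z => ⟨⟨z.1, z.2.1⟩, z.2.2⟩, fun z => ⟨z.1.1, z.1.2, z.2⟩, fun _ => rfl, fun _ => rfl⟩
  have hq : (Fintype.card F : ℝ) ≠ 0 := by exact_mod_cast Fintype.card_ne_zero
  have h2 : ∀ v, φ v * Nat.card {z : C // B v z = 0} = (Nat.card C : ℝ) * (Fintype.card F : ℝ)⁻¹ * φ v +
      (Nat.card C : ℝ) * (1 - (Fintype.card F : ℝ)⁻¹) * (if v ∈ perp B C then φ v else 0) := by
    intro v
    split_ifs with hv
    · have : Nat.card {z : C // B v z = 0} = Nat.card C :=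
        Nat.card_congr (Equiv.subtypeUnivEquiv fun z => hv z z.2)
      rw [this]
      ring
    · have := card_ker C hv
      rw [← this]
      push_cast
      field_simp
      ring
  rw [h1]
  simp only [h2]
  rw [Finset.sum_add_distrib, ← Finset.mul_sum, hs, mul_zero, zero_add, ← Finset.mul_sum]
  rfl

/-! ### linear functions -/

variable (B j) in
/-- linear combinations of the sums over the subspaces of the flag -/
def Lin (φ : V → ℝ) (f : (Fin j → V) → ℝ) : Prop :=
  ∃ α : ℕ → ℝ, ∀ u : Fin j → V, Frame B u → f u = ∑ l ∈ Finset.range (j + 1), α l * sm φ (W F u l)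

theorem Lin.add {φ : V → ℝ} {f f' : (Fin j → V) → ℝ} (h : Lin B j φ f) (h' : Lin B j φ f') :
    Lin B j φ (fun u => f u + f' u) := by
  obtain ⟨α, h⟩ := h
  obtain ⟨α', h'⟩ := h'
  refine ⟨fun l => α l + α' l, fun u hu => ?_⟩
  beta_reduce
  rw [h u hu, h' u hu, ← Finset.sum_add_distrib]
  exact Finset.sum_congr rfl fun l _ => by ring

theorem Lin.const_mul {φ : V → ℝ} {f : (Fin j → V) → ℝ} (c : ℝ) (h : Lin B j φ f) :
    Lin B j φ (fun u => c * f u) := by
  obtain ⟨α, h⟩ := h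
  refine ⟨fun l => c * α l, fun u hu => ?_⟩
  beta_reduce
  rw [h u hu, Finset.mul_sum]
  exact Finset.sum_congr rfl fun l _ => by ring

theorem Lin.zero {φ : V → ℝ} : Lin B j φ (fun _ => 0) :=
  ⟨fun _ => 0, fun u _ => by simp⟩

theorem Lin.sum {φ : V → ℝ} {ι : Type*} (s : Finset ι) {f : ι → (Fin j → V) → ℝ} (h : ∀ i ∈ s, Lin B j φ (f i)) :
    Lin B j φ (fun u => ∑ i ∈ s, f i u) := by
  classical
  induction s using Finset.induction_on with
  | empty => simpa using Lin.zero
  | insert a s ha ih =>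
    simp only [Finset.sum_insert ha]
    exact (h a (Finset.mem_insert_self a s)).add (ih fun i hi => h i (Finset.mem_insert_of_mem hi))

theorem Lin.congr {φ : V → ℝ} {f f' : (Fin j → V) → ℝ} (h : Lin B j φ f) (e : ∀ u, Frame B u → f' u = f u) :
    Lin B j φ f' := by
  obtain ⟨α, h⟩ := h
  exact ⟨α, fun u hu => (e u hu).trans (h u hu)⟩

theorem lin_W {φ : V → ℝ} {i : ℕ} (hi : i ≤ j) : Lin B j φ (fun u => sm φ (W F u i)) := by
  classical
  refine ⟨fun l => if l = i then 1 else 0, fun u _ => ?_⟩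
  simp only [ite_mul, one_mul, zero_mul]
  rw [Finset.sum_ite_eq', if_pos (Finset.mem_range.2 (by omega))]

theorem lin_Ch {φ : V → ℝ} (hs : ∑ v, φ v = 0) {lam : ℝ}
    (hlam : ∀ z, B z z = 0 → sm φ (perp B (Submodule.span F {z})) = lam * φ z) (i : ℕ) :
    Lin B j φ (fun u => sm φ (Ch B u i)) := by
  by_cases hi : i ≤ j
  · exact (lin_W hi).congr fun u _ => by rw [Ch_of_le hi]
  · have hi2 : 2 * j + 1 - i ≤ j := by omega
    refine ((lin_W (φ := φ) hi2).const_mul
      (lam * ((Fintype.card F : ℝ) ^ (2 * j + 1 - i) * (1 - (Fintype.card F : ℝ)⁻¹))⁻¹)).congr fun u hu => ?_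
    rw [Ch_of_lt (by omega)]
    have h1 := perp_sum hs hlam (hu.W_ti (2 * j + 1 - i))
    rw [Module.natCard_eq_pow_finrank (K := F), finrank_W hu.li hi2, Nat.card_eq_fintype_card] at h1
    have hq1 : (1 : ℝ) < Fintype.card F := by exact_mod_cast Fintype.one_lt_card
    have hq : (0 : ℝ) < 1 - (Fintype.card F : ℝ)⁻¹ := by
      have := inv_lt_one_of_one_lt₀ hq1
      linarith
    have hne : ((Fintype.card F : ℝ) ^ (2 * j + 1 - i) * (1 - (Fintype.card F : ℝ)⁻¹)) ≠ 0 := by
      have : (0 : ℝ) < (Fintype.card F : ℝ) ^ (2 * j + 1 - i) := by positivity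
      positivity
    push_cast at h1
    rw [mul_assoc, mul_left_comm, ← h1, ← mul_assoc, inv_mul_cancel₀ hne, one_mul]

/-! ### the characteristic function -/

variable (B) in
/-- the number of non zero isotropic vectors -/
noncomputable def mu : ℝ := ({v : V | v ≠ 0 ∧ B v v = 0}.ncard : ℝ)

variable (B) in
open Classical in
/-- the normalised characteristic function of a set of isotropic points -/
noncomputable def nf (O : Set V) (v : V) : ℝ :=
  (if v ∈ O then 1 else 0) - if v ≠ 0 ∧ B v v = 0 then (O.ncard : ℝ) / mu B else 0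

theorem ncard_eq_sum (O : Set V) [DecidablePred (· ∈ O)] : (O.ncard : ℝ) = ∑ v : V, if v ∈ O then (1 : ℝ) else 0 := by
  classical
  rw [← Finset.sum_filter, Finset.sum_const, nsmul_eq_mul, mul_one, ← Nat.card_coe_set_eq, Nat.card_eq_fintype_card,
    ← Fintype.card_subtype]

open Classical in
theorem sum_ite_iso (c : ℝ) : ∑ v : V, (if v ≠ 0 ∧ B v v = 0 then c else 0 : ℝ) = c * mu B := by
  classical
  unfold mu
  rw [ncard_eq_sum, Finset.mul_sum]
  refine Finset.sum_congr rfl fun v _ => ?_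
  change (if v ≠ 0 ∧ B v v = 0 then c else 0 : ℝ) = c * (if v ≠ 0 ∧ B v v = 0 then 1 else 0)
  split_ifs <;> ring

section OrbSec

variable {K : Subgroup (SIso B)} {O : Set V}

theorem Orb.mu_ne (hO : Orb K O) : mu B ≠ 0 := by
  obtain ⟨v, hv⟩ := hO.ne
  have h1 : v ≠ 0 := fun e => hO.zero (e ▸ hv)
  unfold mu
  have h2 : {v : V | v ≠ 0 ∧ B v v = 0}.Nonempty := ⟨v, h1, hO.iso v hv⟩
  have := (Set.ncard_pos (Set.toFinite _)).2 h2
  exact_mod_cast this.ne'

theorem Orb.mem_iso (hO : Orb K O) {v : V} (hv : v ∈ O) : v ≠ 0 ∧ B v v = 0 :=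
  ⟨fun e => hO.zero (e ▸ hv), hO.iso v hv⟩

theorem nf_not (hO : Orb K O) {v : V} (h : ¬(v ≠ 0 ∧ B v v = 0)) : nf B O v = 0 := by
  classical
  unfold nf
  rw [if_neg fun hv => h (hO.mem_iso hv), if_neg h, sub_zero]

theorem nf_zero (hO : Orb K O) : nf B O 0 = 0 := nf_not hO fun h => h.1 rfl

theorem sum_nf (hO : Orb K O) : ∑ v, nf B O v = 0 := by
  classical
  unfold nf
  rw [Finset.sum_sub_distrib, sum_ite_iso, div_mul_cancel₀ _ hO.mu_ne, sub_eq_zero]
  exact (ncard_eq_sum O).symm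

theorem nf_smul (hO : Orb K O) {g : SIso B} (hg : g ∈ K) (v : V) : nf B O (g • v) = nf B O v := by
  classical
  unfold nf
  simp only [hO.inv g hg, Ne, smul_eq_zero', B_smul]

theorem nf_csmul (hO : Orb K O) {c : F} (hc : c ≠ 0) (v : V) : nf B O (c • v) = nf B O v := by
  classical
  unfold nf
  have h1 : (c • v ≠ 0 ∧ B (c • v) (c • v) = 0) ↔ (v ≠ 0 ∧ B v v = 0) := by
    rw [smul_ne_zero_iff, smul_left', smul_right', mul_eq_zero, mul_eq_zero, map_eq_zero]
    simp [hc]
  simp only [hO.smul c hc, h1]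

/-- sums over a totally isotropic subspace -/
theorem sm_nf {C : Submodule F V} (hC : TI B C) :
    sm (nf B O) C = (((C : Set V) ∩ O).ncard : ℝ) - (O.ncard : ℝ) / mu B * ((Nat.card C : ℝ) - 1) := by
  classical
  unfold sm nf
  rw [ncard_eq_sum ((C : Set V) ∩ O)]
  have h1 : ((Nat.card C : ℝ) - 1) = ∑ v : V, if v ∈ C ∧ v ≠ 0 then (1 : ℝ) else 0 := by
    have e : ∀ v : V, (if v ∈ C ∧ v ≠ 0 then (1 : ℝ) else 0) = (if v ∈ (C : Set V) then (1 : ℝ) else 0) -
        if v = 0 then 1 else 0 := by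
      intro v
      by_cases hv : v = 0
      · subst hv; simp
      · simp [hv]
    simp only [e]
    rw [Finset.sum_sub_distrib, Finset.sum_ite_eq', if_pos (Finset.mem_univ _), ← ncard_eq_sum, ← Nat.card_coe_set_eq]
    rfl
  rw [h1, Finset.mul_sum, ← Finset.sum_sub_distrib]
  refine Finset.sum_congr rfl fun v _ => ?_
  simp only [Set.mem_inter_iff, SetLike.mem_coe]
  by_cases hv : v ∈ C
  · by_cases h0 : v = 0
    · simp [h0]
    · simp [hv, h0, hC v hv v hv]
  · simp [hv]

/-- functions on isotropic points which are constant on the orbits and have sum zero -/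
theorem exists_lam (hO : Orb K O) {τ : V → ℝ} (h0 : ∀ v, ¬(v ≠ 0 ∧ B v v = 0) → τ v = 0)
    (hs : ∑ v, τ v = 0) (hK : ∀ g ∈ K, ∀ v, τ (g • v) = τ v) (hc : ∀ c : F, c ≠ 0 → ∀ v, τ (c • v) = τ v) :
    ∃ lam : ℝ, ∀ v, τ v = lam * nf B O v := by
  classical
  obtain ⟨a, ha⟩ := hO.ne
  obtain ⟨b, hb0, hbb, hb⟩ := hO.ne'
  have ha0 : a ≠ 0 := fun e => hO.zero (e ▸ ha)
  have hgen : ∀ v w : V, w ≠ 0 → v ≠ 0 → (∃ g ∈ K, ∃ c : F, g • v = c • w) → τ v = τ w := by
    rintro v w hw hv ⟨g, hg, c, e⟩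
    have hcne : c ≠ 0 := by
      rintro rfl
      rw [zero_smul] at e
      exact hv ((smul_eq_zero' g).1 e)
    rw [← hK g hg, e, hc c hcne]
  have h1 : ∀ v ∈ O, τ v = τ a := fun v hv => hgen v a ha0 (fun e => hO.zero (e ▸ hv)) (hO.tr v hv a ha)
  have h2 : ∀ v, v ≠ 0 → B v v = 0 → v ∉ O → τ v = τ b := fun v hv hvv hvO =>
    hgen v b hb0 hv (hO.tr' v hv hvv hvO b hb0 hbb hb)
  refine ⟨τ a - τ b, fun v => ?_⟩
  -- the mean
  have e : ∀ v, τ v = (τ a - τ b) * (if v ∈ O then 1 else 0) + if v ≠ 0 ∧ B v v = 0 then τ b else 0 := by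
    intro v
    by_cases hv : v ≠ 0 ∧ B v v = 0
    · by_cases hvO : v ∈ O
      · rw [h1 v hvO, if_pos hvO, if_pos hv]; ring
      · rw [h2 v hv.1 hv.2 hvO, if_neg hvO, if_pos hv]; ring
    · rw [h0 v hv, if_neg fun h => hv (hO.mem_iso h), if_neg hv]; ring
  have h3 : (τ a - τ b) * O.ncard + τ b * mu B = 0 := by
    rw [ncard_eq_sum O, ← sum_ite_iso, Finset.mul_sum, ← Finset.sum_add_distrib]
    rw [Finset.sum_congr rfl fun v _ => e v] at hs
    exact hs
  have h4 : τ b = -((τ a - τ b) * (O.ncard / mu B)) := by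
    have := hO.mu_ne
    field_simp
    linarith
  rw [e v]
  unfold nf
  by_cases hv : v ≠ 0 ∧ B v v = 0
  · rw [if_pos hv, if_pos hv, mul_sub]
    linarith
  · rw [if_neg fun h => hv (hO.mem_iso h), if_neg hv, if_neg hv]; ring

theorem sm_perp_span (φ : V → ℝ) (z : V) [DecidablePred fun v => B v z = 0] :
    sm φ (perp B (Submodule.span F {z})) = ∑ v, if B v z = 0 then φ v else 0 := by
  classical
  unfold sm
  refine Finset.sum_congr rfl fun v _ => ?_
  simp only [mem_perp_span]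

end OrbSec

/-! ### kernels -/

theorem exists_kernel {G X Y : Type*} [Group G] [MulAction G X] [MulAction G Y] [MulAction.IsPretransitive G X] (x₀ : X)
    {f : Y → ℝ} (hf : ∀ k ∈ MulAction.stabilizer G x₀, ∀ y, f (k • y) = f y) :
    ∃ A : Matrix X Y ℝ, Inv G A ∧ ∀ y, A x₀ y = f y := by
  have hch : ∀ x : X, ∃ g : G, g • x₀ = x := fun x => MulAction.exists_smul_eq G x₀ x
  choose c hc using hch
  refine ⟨fun x y => f ((c x)⁻¹ • y), ?_, ?_⟩
  · intro g x y
    have h1 : (c (g • x))⁻¹ * g * c x ∈ MulAction.stabilizer G x₀ := by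
      rw [MulAction.mem_stabilizer_iff, mul_smul, mul_smul, hc, inv_smul_eq_iff, hc]
    change f ((c (g • x))⁻¹ • g • y) = f ((c x)⁻¹ • y)
    rw [← hf _ h1 ((c x)⁻¹ • y), mul_smul, mul_smul, smul_inv_smul]
  · intro y
    refine hf _ ?_ y
    rw [MulAction.mem_stabilizer_iff, inv_smul_eq_iff, hc]

theorem exists_smul_iso (ht : Tr1 B) {v w : V} (hv : v ≠ 0) (hvv : B v v = 0) (hw : w ≠ 0) (hww : B w w = 0) :
    ∃ (g : SIso B) (c : F), c ≠ 0 ∧ g • v = c • w := by
  obtain ⟨g, hg, e⟩ := ht 1 (fun _ => v) (fun _ => w) ⟨LinearIndependent.of_subsingleton 0 hv, fun _ _ => hvv⟩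
    ⟨LinearIndependent.of_subsingleton 0 hw, fun _ _ => hww⟩
  have e1 := e 1
  rw [W_of_le _ le_rfl, W_of_le _ le_rfl, Set.range_const, Set.range_const] at e1
  have h1 : g v ∈ Submodule.span F {w} := by
    rw [← e1]
    exact ⟨v, Submodule.mem_span_singleton_self v, rfl⟩
  obtain ⟨c, hc⟩ := Submodule.mem_span_singleton.1 h1
  refine ⟨⟨g, hg⟩, c, ?_, hc.symm⟩
  rintro rfl
  rw [zero_smul] at hc
  exact hv ((LinearEquiv.map_eq_zero_iff g).1 hc.symm)

/-- the orthogonality sums of the normalised characteristic function -/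
theorem exists_lam' (ht : Tr1 B) {K : Subgroup (SIso B)} {O : Set V} (hO : Orb K O) :
    ∃ lam : ℝ, ∀ z, B z z = 0 → sm (nf B O) (perp B (Submodule.span F {z})) = lam * nf B O z := by
  classical
  let τ : V → ℝ := fun z => if z ≠ 0 ∧ B z z = 0 then sm (nf B O) (perp B (Submodule.span F {z})) else 0
  have hτ : ∀ z, z ≠ 0 ∧ B z z = 0 → τ z = sm (nf B O) (perp B (Submodule.span F {z})) := fun z hz => if_pos hz
  have hτ' : ∀ z, ¬(z ≠ 0 ∧ B z z = 0) → τ z = 0 := fun z hz => if_neg hz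
  have hgen : ∀ (g : SIso B), (∀ v, nf B O (g • v) = nf B O v) → ∀ z,
      sm (nf B O) (perp B (Submodule.span F {g • z})) = sm (nf B O) (perp B (Submodule.span F {z})) := by
    intro g hg z
    simp only [sm_perp_span]
    rw [← Equiv.sum_comp (MulAction.toPerm g : Equiv.Perm V)]
    refine Finset.sum_congr rfl fun v _ => ?_
    rw [MulAction.toPerm_apply, hg]
    simp only [B_smul]
  have hsc : ∀ (c : F) (z : V), c ≠ 0 → sm (nf B O) (perp B (Submodule.span F {c • z})) =
      sm (nf B O) (perp B (Submodule.span F {z})) := by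
    intro c z hc
    simp only [sm_perp_span]
    refine Finset.sum_congr rfl fun v _ => ?_
    have : B v (c • z) = 0 ↔ B v z = 0 := by
      rw [map_smul, smul_eq_zero]
      exact ⟨fun h => h.resolve_left hc, Or.inr⟩
    simp only [this]
  obtain ⟨lam, hlam⟩ : ∃ lam : ℝ, ∀ v, τ v = lam * nf B O v := by
    refine exists_lam hO hτ' ?_ ?_ ?_
    · -- the sum
      obtain ⟨a, ha⟩ := hO.ne
      obtain ⟨ha0, haa⟩ := hO.mem_iso ha
      have hcnt : ∀ v : V, v ≠ 0 ∧ B v v = 0 →
          (∑ z : V, if (z ≠ 0 ∧ B z z = 0) ∧ B v z = 0 then (1 : ℝ) else 0) =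
          ∑ z : V, if (z ≠ 0 ∧ B z z = 0) ∧ B a z = 0 then (1 : ℝ) else 0 := by
        rintro v ⟨hv0, hvv⟩
        obtain ⟨g, c, hc, e⟩ := exists_smul_iso ht ha0 haa hv0 hvv
        rw [← Equiv.sum_comp (MulAction.toPerm g : Equiv.Perm V)]
        refine Finset.sum_congr rfl fun z _ => ?_
        have h1 : B v (g • z) = 0 ↔ B a z = 0 := by
          have h2 : B (c • v) (g • z) = B a z := by rw [← e, B_smul]
          rw [smul_left'] at h2
          rw [← h2, mul_eq_zero]
          exact ⟨Or.inr, fun h => h.resolve_left ((map_ne_zero σ).2 hc)⟩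
        rw [MulAction.toPerm_apply]
        simp only [h1, B_smul, Ne, smul_eq_zero']
      have h1 : ∀ z, τ z = ∑ v, if (z ≠ 0 ∧ B z z = 0) ∧ B v z = 0 then nf B O v else 0 := by
        intro z
        by_cases hz : z ≠ 0 ∧ B z z = 0
        · rw [hτ z hz, sm_perp_span]
          exact Finset.sum_congr rfl fun v _ => if_congr (and_iff_right hz).symm rfl rfl
        · rw [hτ' z hz]
          simp only [hz, false_and, if_false, Finset.sum_const_zero]
      simp only [h1]
      rw [Finset.sum_comm]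
      have h2 : ∀ v, (∑ z : V, if (z ≠ 0 ∧ B z z = 0) ∧ B v z = 0 then nf B O v else 0) =
          nf B O v * ∑ z : V, if (z ≠ 0 ∧ B z z = 0) ∧ B a z = 0 then (1 : ℝ) else 0 := by
        intro v
        by_cases hv : v ≠ 0 ∧ B v v = 0
        · rw [← hcnt v hv, Finset.mul_sum]
          refine Finset.sum_congr rfl fun z _ => ?_
          split_ifs <;> ring
        · rw [nf_not hO hv, zero_mul]
          simp
      simp only [h2]
      rw [← Finset.sum_mul, sum_nf hO, zero_mul]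
    · intro g hg z
      by_cases hz : z ≠ 0 ∧ B z z = 0
      · have hz' : g • z ≠ 0 ∧ B (g • z) (g • z) = 0 := by
          rw [Ne, smul_eq_zero', B_smul]; exact hz
        rw [hτ _ hz, hτ _ hz', hgen g (nf_smul hO hg)]
      · have hz' : ¬(g • z ≠ 0 ∧ B (g • z) (g • z) = 0) := by
          rw [Ne, smul_eq_zero', B_smul]; exact hz
        rw [hτ' _ hz, hτ' _ hz']
    · intro c hc z
      have hiff : (c • z ≠ 0 ∧ B (c • z) (c • z) = 0) ↔ (z ≠ 0 ∧ B z z = 0) := by
        rw [smul_ne_zero_iff, smul_left', smul_right', mul_eq_zero, mul_eq_zero, map_eq_zero]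
        simp [hc]
      by_cases hz : z ≠ 0 ∧ B z z = 0
      · rw [hτ _ hz, hτ _ (hiff.2 hz), hsc c z hc]
      · rw [hτ' _ hz, hτ' _ fun h => hz (hiff.1 h)]
  refine ⟨lam, fun z hz => ?_⟩
  by_cases h0 : z = 0
  · subst h0
    rw [nf_zero hO, mul_zero, sm_perp_span]
    simp only [map_zero, if_true]
    exact sum_nf hO
  · rw [← hlam, hτ z ⟨h0, hz⟩]

section Main

variable {X : Type*} [Fintype X] [MulAction (SIso B) X] [MulAction.IsPretransitive (SIso B) X] (x₀ : X) {r : X → ℝ}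

theorem sum_r (hr : Orth B r) : ∑ x, r x = 0 := by
  have h := hr 0 (fun i => i.elim0) (fun _ => 1) ⟨linearIndependent_empty_type, fun i => i.elim0⟩ (fun _ _ _ => rfl)
  simpa using h

theorem rd (h3 : Nat.card (MulAction.orbitRel.Quotient (MulAction.stabilizer (SIso B) x₀) X) ≤ 3) (hr : Orth B r)
    (hr0 : r ≠ 0) : Rd (SIso B) x₀ r :=
  ⟨inferInstance, h3, hr0, sum_r hr⟩

/-- the point kernel -/
theorem exists_F0 (ht : Tr1 B) {O : Set V} (hO : Orb (MulAction.stabilizer (SIso B) x₀) O) (hr : Orth B r) :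
    ∃ F₀ : Matrix X V ℝ, Inv (SIso B) F₀ ∧ (∀ v, F₀ x₀ v = nf B O v) ∧
      (∀ x (c : F) v, c ≠ 0 → F₀ x (c • v) = F₀ x v) ∧ Zc F₀ ∧ F₀ ≠ 0 ∧ F₀.transpose.mulVec r = 0 := by
  classical
  obtain ⟨F₀, hF, h0⟩ := exists_kernel (X := X) x₀ (f := nf B O) fun g hg v => nf_smul hO hg v
  have hrow : ∀ (g : SIso B) v, F₀ (g • x₀) v = nf B O (g⁻¹ • v) := by
    intro g v
    rw [← h0, ← hF g x₀, smul_inv_smul]
  have hz : ∀ x v, ¬(v ≠ 0 ∧ B v v = 0) → F₀ x v = 0 := by
    intro x v hv
    obtain ⟨g, rfl⟩ := MulAction.exists_smul_eq (SIso B) x₀ x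
    rw [hrow]
    refine nf_not hO ?_
    rw [Ne, smul_eq_zero', B_smul]
    exact hv
  have hsc : ∀ x (c : F) v, c ≠ 0 → F₀ x (c • v) = F₀ x v := by
    intro x c v hc
    obtain ⟨g, rfl⟩ := MulAction.exists_smul_eq (SIso B) x₀ x
    rw [hrow, hrow]
    have h1 : g⁻¹ • c • v = c • g⁻¹ • v := map_smul g⁻¹.1 c v
    rw [h1, nf_csmul hO hc]
  have hcol : Zc F₀ := by
    have hm : ∀ (g : SIso B) v, ∑ x, F₀ x (g • v) = ∑ x, F₀ x v := by
      intro g v
      rw [← Equiv.sum_comp (MulAction.toPerm g : Equiv.Perm X)]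
      exact Finset.sum_congr rfl fun x _ => hF g x v
    have hrs : ∀ x, ∑ v, F₀ x v = 0 := by
      intro x
      obtain ⟨g, rfl⟩ := MulAction.exists_smul_eq (SIso B) x₀ x
      rw [Finset.sum_congr rfl fun v _ => hrow g v, ← sum_nf hO]
      exact Equiv.sum_comp (MulAction.toPerm g⁻¹ : Equiv.Perm V) (nf B O)
    obtain ⟨a, ha⟩ := hO.ne
    obtain ⟨ha0, haa⟩ := hO.mem_iso ha
    have hconst : ∀ v, v ≠ 0 → B v v = 0 → ∑ x, F₀ x v = ∑ x, F₀ x a := by
      intro v hv hvv
      obtain ⟨g, c, hc, e⟩ := exists_smul_iso ht ha0 haa hv hvv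
      rw [← hm g a, e]
      exact Finset.sum_congr rfl fun x _ => (hsc x c v hc).symm
    have hm0 : ∑ x, F₀ x a = 0 := by
      have h1 : ∑ v : V, (if v ≠ 0 ∧ B v v = 0 then ∑ x, F₀ x a else 0) = ∑ v : V, ∑ x, F₀ x v := by
        refine Finset.sum_congr rfl fun v _ => ?_
        split_ifs with hv
        · exact (hconst v hv.1 hv.2).symm
        · simp only [hz _ v hv, Finset.sum_const_zero]
      rw [sum_ite_iso, Finset.sum_comm] at h1
      simp only [hrs, Finset.sum_const_zero] at h1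
      exact (mul_eq_zero.1 h1).resolve_right hO.mu_ne
    intro v
    by_cases hv : v ≠ 0 ∧ B v v = 0
    · rw [hconst v hv.1 hv.2, hm0]
    · simp only [hz _ v hv, Finset.sum_const_zero]
  refine ⟨F₀, hF, h0, hsc, hcol, ?_, ?_⟩
  · intro e
    obtain ⟨a, ha⟩ := hO.ne
    obtain ⟨b, hb0, hbb, hb⟩ := hO.ne'
    have h1 : nf B O a = 0 := by rw [← h0, e]; rfl
    have h2 : nf B O b = 0 := by rw [← h0, e]; rfl
    unfold nf at h1 h2
    rw [if_pos ha, if_pos (hO.mem_iso ha)] at h1
    rw [if_neg hb, if_pos ⟨hb0, hbb⟩] at h2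
    linarith
  · funext v
    rw [Matrix.mulVec, Pi.zero_apply]
    change ∑ x, F₀ x v * r x = 0
    by_cases hv : v ≠ 0 ∧ B v v = 0
    · refine hr 1 (fun _ => v) (fun x => F₀ x v) ⟨LinearIndependent.of_subsingleton 0 hv.1, fun _ _ => hv.2⟩ ?_
      intro g hg x
      have h1 : g⁻¹ • v ∈ Submodule.span F {v} := by
        have h2 := hg 1
        rw [W_of_le _ le_rfl, Set.range_const] at h2
        have h3 : v ∈ (Submodule.span F {v}).map (g.1 : V →ₗ[F] V) := by
          rw [h2]; exact Submodule.mem_span_singleton_self v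
        obtain ⟨w, hw, e⟩ := h3
        have h4 : g⁻¹ • v = w := by
          rw [inv_smul_eq_iff]; exact e.symm
        rw [h4]; exact hw
      obtain ⟨c, hc⟩ := Submodule.mem_span_singleton.1 h1
      have hc0 : c ≠ 0 := by
        rintro rfl
        rw [zero_smul] at hc
        exact hv.1 ((smul_eq_zero' g⁻¹).1 hc.symm)
      rw [← hF g⁻¹ (g • x) v, inv_smul_smul, ← hc, hsc x c v hc0]
    · simp only [hz _ v hv, zero_mul, Finset.sum_const_zero]

/-- **Invariant functions on flags are affine functions of the intersection numbers.** -/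
theorem aff (hn : 6 ≤ finrank F V) (hB : HForm B)
    (h3 : Nat.card (MulAction.orbitRel.Quotient (MulAction.stabilizer (SIso B) x₀) X) ≤ 3)
    {O : Set V} (hO : Orb (MulAction.stabilizer (SIso B) x₀) O) (hr : Orth B r) (hr0 : r ≠ 0) :
    AffP (MulAction.stabilizer (SIso B) x₀) O := by
  classical
  intro j f hf hfl
  have ht : Tr1 B := fun j u u' hu hu' => Cfsg.Agent.H450.UF.exists_flag_map0 hB hu hu'
  have hRd := rd x₀ h3 hr hr0
  obtain ⟨F₀, hF₀, h0, hsc, hz0, hne0, hr00⟩ := exists_F0 x₀ ht hO hr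
  obtain ⟨lam, hlam⟩ := exists_lam' ht hO
  obtain ⟨γ, hγ, hfac⟩ := hRd.factor hF₀ hz0 hne0 hr00
  by_cases hex : ∃ u : Fin j → V, Frame B u
  swap
  · exact ⟨0, fun _ => 0, fun u hu => absurd ⟨u, hu⟩ hex⟩
  obtain ⟨u₁, hu₁⟩ := hex
  obtain ⟨A, hA, hA0⟩ := exists_kernel x₀ hf
  have hcardX : (Fintype.card X : ℝ) ≠ 0 := by
    have : Nonempty X := ⟨x₀⟩
    exact_mod_cast Fintype.card_ne_zero
  set m₁ : ℝ := (∑ x, A x u₁) / Fintype.card X with hm₁
  have hframe : ∀ (g : SIso B) (u : Fin j → V), Frame B (g • u) ↔ Frame B u := by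
    intro g u
    refine ⟨fun h => ?_, fun h => frame_smul h g⟩
    have := frame_smul h g⁻¹
    rwa [inv_smul_smul] at this
  -- flag invariance
  have hAfl : ∀ x u u', Frame B u → Frame B u' → (∀ i, W F u i = W F u' i) → A x u = A x u' := by
    intro x u u' hu hu' hW
    obtain ⟨g, rfl⟩ := MulAction.exists_smul_eq (SIso B) x₀ x
    rw [← hA g⁻¹ (g • x₀) u, ← hA g⁻¹ (g • x₀) u', inv_smul_smul, hA0, hA0]
    rw [hfl _ _ (frame_smul hu g⁻¹) (frame_smul hu' g⁻¹) (fun i => by rw [W_smul, W_smul, hW])]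
  let Fm : Matrix X (Fin j → V) ℝ := fun x u => if Frame B u then A x u - m₁ else 0
  have hFm : ∀ x u, Frame B u → Fm x u = A x u - m₁ := fun x u hu => if_pos hu
  have hFi : Inv (SIso B) Fm := by
    intro g x u
    change (if Frame B (g • u) then A (g • x) (g • u) - m₁ else 0) = if Frame B u then A x u - m₁ else 0
    simp only [hframe, hA g x u]
  have hFz : Zc Fm := by
    intro u
    by_cases hu : Frame B u
    · simp only [hFm _ u hu]
      obtain ⟨g, hg, e⟩ := ht j u₁ u hu₁ hu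
      have e' : ∀ x, A x ((⟨g, hg⟩ : SIso B) • u₁) = A x u := fun x =>
        hAfl x _ _ (frame_smul hu₁ _) hu fun i => (W_smul _ u₁ i).trans (e i)
      have h1 : ∑ x, A x u = ∑ x, A x u₁ := by
        rw [← Equiv.sum_comp (MulAction.toPerm (⟨g, hg⟩ : SIso B) : Equiv.Perm X)]
        refine Finset.sum_congr rfl fun x _ => ?_
        rw [← e']
        exact hA _ x u₁
      rw [Finset.sum_sub_distrib, h1, Finset.sum_const, Finset.card_univ, nsmul_eq_mul, hm₁, mul_div_cancel₀ _ hcardX,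
        sub_self]
    · refine Finset.sum_eq_zero fun x _ => ?_
      exact if_neg hu
  have hFfl : ∀ x u u', Frame B u → Frame B u' → (∀ i, W F u i = W F u' i) → Fm x u = Fm x u' := by
    intro x u u' hu hu' hW
    rw [hFm _ _ hu, hFm _ _ hu', hAfl x u u' hu hu' hW]
  have hFr : Fm.transpose.mulVec r = 0 := by
    funext u
    rw [Matrix.mulVec, Pi.zero_apply]
    change ∑ x, Fm x u * r x = 0
    by_cases hu : Frame B u
    · refine hr j u (fun x => Fm x u) hu fun g hg x => ?_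
      rw [← hFi g⁻¹ (g • x) u, inv_smul_smul]
      refine hFfl x _ _ (frame_smul hu _) hu fun i => ?_
      rw [W_smul]
      have h1 := hg i
      have h2 : (W F u i) = ((W F u i).map (g.1 : V →ₗ[F] V)).map (g⁻¹.1 : V →ₗ[F] V) := by
        ext v
        constructor
        · intro hv
          exact ⟨g • v, ⟨v, hv, rfl⟩, inv_smul_smul g v⟩
        · rintro ⟨_, ⟨w, hw, rfl⟩, rfl⟩
          have : (g⁻¹.1 : V →ₗ[F] V) ((g.1 : V →ₗ[F] V) w) = w := inv_smul_smul g w
          rw [this]; exact hw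
      rw [h1] at h2
      exact h2.symm
    · refine Finset.sum_eq_zero fun x _ => ?_
      rw [show Fm x u = 0 from if_neg hu, zero_mul]
  have hmain := hfac hFi hFz hFr
  set C : Matrix V (Fin j → V) ℝ := F₀.transpose * Fm with hC
  have hCi : Inv (SIso B) C := hF₀.transpose.mul hFi
  have hCfl : ∀ v u u', Frame B u → Frame B u' → (∀ i, W F u i = W F u' i) → C v u = C v u' := by
    intro v u u' hu hu' hW
    rw [hC, Matrix.mul_apply, Matrix.mul_apply]
    exact Finset.sum_congr rfl fun x _ => by rw [hFfl x u u' hu hu' hW]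
  have hCcl : ∀ u u' v v', Frame B u → Frame B u' → v ≠ 0 → B v v = 0 → v' ≠ 0 → B v' v' = 0 →
      cl B u v = cl B u' v' → C v u = C v' u' := by
    intro u u' v v' hu hu' hv hvv hv' hvv' hcl
    obtain ⟨g, hg, e, hW⟩ := Cfsg.Agent.H450.UF.exists_flag_map hB hn hu hu' hv hvv hvv' hcl
    rw [← hCi ⟨g, hg⟩ v u]
    have e1 : (⟨g, hg⟩ : SIso B) • v = v' := e
    rw [e1]
    exact hCfl v' _ _ (frame_smul hu _) hu' fun i => by rw [W_smul]; exact hW i
  -- the function of the position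
  let gg : ℕ → ℝ := fun n => if h : ∃ p : (Fin j → V) × V, Frame B p.1 ∧ (p.2 ≠ 0 ∧ B p.2 p.2 = 0) ∧ cl B p.1 p.2 = n then
    C h.choose.2 h.choose.1 else 0
  have hgg : ∀ u v, Frame B u → v ≠ 0 → B v v = 0 → C v u = gg (cl B u v) := by
    intro u v hu hv hvv
    have hex : ∃ p : (Fin j → V) × V, Frame B p.1 ∧ (p.2 ≠ 0 ∧ B p.2 p.2 = 0) ∧ cl B p.1 p.2 = cl B u v :=
      ⟨(u, v), hu, ⟨hv, hvv⟩, rfl⟩
    have e1 : gg (cl B u v) = C hex.choose.2 hex.choose.1 := dif_pos hex
    rw [e1]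
    obtain ⟨h1, h2, h3⟩ := hex.choose_spec
    exact (hCcl _ _ _ _ h1 hu h2.1 h2.2 hv hvv h3).symm
  have hlin : Lin B j (nf B O) (fun u => γ⁻¹ * ∑ i ∈ Finset.range (2 * j + 1),
      (gg i - gg (i + 1)) * sm (nf B O) (Ch B u i)) :=
    (Lin.sum _ fun i _ => (lin_Ch (sum_nf hO) hlam i).const_mul _).const_mul _
  obtain ⟨α, hα⟩ := hlin
  refine ⟨m₁ - ∑ l ∈ Finset.range (j + 1), α l * ((O.ncard : ℝ) / mu B *
    ((Fintype.card F : ℝ) ^ l - 1)), α, fun u hu => ?_⟩
  have h1 : γ * Fm x₀ u = ∑ v, nf B O v * C v u := by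
    have := congrFun (congrFun hmain x₀) u
    rw [Matrix.smul_apply, smul_eq_mul, Matrix.mul_apply] at this
    rw [this]
    exact Finset.sum_congr rfl fun v _ => by rw [h0]
  rw [sum_eq hu (fun v hv => nf_not hO hv) (sum_nf hO) (fun v hv hvv => hgg u v hu hv hvv)] at h1
  have h2 : Fm x₀ u = ∑ l ∈ Finset.range (j + 1), α l * sm (nf B O) (W F u l) := by
    rw [← hα u hu]
    beta_reduce
    rw [← h1, ← mul_assoc, inv_mul_cancel₀ hγ, one_mul]
  rw [hFm _ _ hu, hA0] at h2
  have h3 : f u = m₁ + ∑ l ∈ Finset.range (j + 1), α l * sm (nf B O) (W F u l) := by linarith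
  rw [h3, sub_add, ← Finset.sum_sub_distrib, sub_eq_add_neg, ← Finset.sum_neg_distrib]
  congr 1
  refine Finset.sum_congr rfl fun l hl => ?_
  have hl' : l ≤ j := by have := Finset.mem_range.1 hl; omega
  rw [sm_nf (hu.W_ti l), Module.natCard_eq_pow_finrank (K := F), finrank_W hu.li hl', Nat.card_eq_fintype_card]
  push_cast
  ring

end Main

end Cfsg.Agent.H91.U
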