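import Cfsg.Agent.H91.U.FlagFun
import Cfsg.Agent.H91.U.BorelFlag
import Cfsg.Agent.H450.UF.Geo

/-!
# Rank three actions of `PSU`: the dichotomy (helper91)

Either the stabiliser contains a Sylow `p`-subgroup, or there is a function `r ≠ 0` which is
orthogonal to the functions invariant under the stabilisers of totally isotropic flags.
-/

set_option autoImplicit false
set_option linter.unusedSectionVars false

namespace Cfsg.Agent.H91.U

open Cfsg Module RankThree
open Cfsg.Agent.H249 Cfsg.Agent.H249.Pair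

variable {F : Type*} [Field F] [Fintype F] {q n : ℕ} (hF : Fintype.card F = q ^ 2)

theorem W_smul_of {V : Type*} [AddCommGroup V] [Module F V] {σ : F →+* F} {B : V →ₛₗ[σ] V →ₗ[F] F} {j : ℕ}
    (g : SIso B) {u u' : Fin j → V} (h : ∀ i, (W F u i).map (g.1 : V →ₗ[F] V) = W F u' i) (i : ℕ) :
    (W F u' i).map ((g⁻¹ : SIso B).1 : V →ₗ[F] V) = W F u i := by
  rw [← h i, ← Submodule.map_comp]
  have h2 : ((g⁻¹ : SIso B).1 : V →ₗ[F] V).comp (g.1 : V →ₗ[F] V) = LinearMap.id := by
    refine LinearMap.ext fun v => ?_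
    change g⁻¹ • (g • v) = v
    rw [inv_smul_smul]
  rw [h2, Submodule.map_id]

theorem map_mul' {V : Type*} [AddCommGroup V] [Module F V] {σ : F →+* F} {B : V →ₛₗ[σ] V →ₗ[F] F}
    (g h : SIso B) (C : Submodule F V) :
    C.map ((g * h : SIso B).1 : V →ₗ[F] V) = (C.map (h.1 : V →ₗ[F] V)).map (g.1 : V →ₗ[F] V) := by
  rw [← Submodule.map_comp]
  rfl

variable {X : Type*} [Fintype X] [MulAction (PSU n F q) X] [MulAction (SIso (sB hF n)) X]
  (hc : ∀ (g : SIso (sB hF n)) (x : X), g • x = pi hF n g • x)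

include hc in
/-- the function `r` -/
theorem exists_orth {m : ℕ} (hm2 : n < 2 * m + 2) {e : Fin m → (Fin n → F)} (he : Frame (sB hF n) e)
    {I : Type*} {p : ℕ} (D : Dat (PSU n F q) I p)
    (hD : ∀ y ∈ D.B, ∃ g : SIso (sB hF n), pi hF n g = y ∧
      ∀ i : ℕ, (W F e i).map (g.1 : (Fin n → F) →ₗ[F] (Fin n → F)) = W F e i)
    (hG : ¬ Gen (PSU n F q) (Ω := X) D.B) : ∃ r : X → ℝ, r ≠ 0 ∧ Orth (sB hF n) r := by
  classical
  unfold Gen at hG
  push Not at hG
  obtain ⟨h, hperp, hne⟩ := hG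
  -- orthogonality for the complex function
  have key : ∀ (j : ℕ) (u : Fin j → (Fin n → F)) (f : X → ℝ), Frame (sB hF n) u →
      (∀ g : SIso (sB hF n), (∀ i, (W F u i).map (g.1 : (Fin n → F) →ₗ[F] (Fin n → F)) = W F u i) →
        ∀ x, f (g • x) = f x) → ∑ x, (f x : ℂ) * h x = 0 := by
    intro j u f hu hf
    have hjk : j ≤ m := by
      have := H450.UF.frame_two_mul_le (hform_sB hF n) hu
      rw [finrank_std] at this
      omega
    let e' : Fin j → (Fin n → F) := fun l => e (Fin.castLE hjk l)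
    have he' : Frame (sB hF n) e' :=
      ⟨he.li.comp _ (Fin.castLE_injective hjk), fun i l => he.ti _ _⟩
    have hWe : ∀ i, i ≤ j → W F e' i = W F e i := by
      intro i hi
      unfold W
      congr 1
      ext v
      constructor
      · rintro ⟨l, hl, rfl⟩
        exact ⟨Fin.castLE hjk l, hl, rfl⟩
      · rintro ⟨l, hl, rfl⟩
        exact ⟨⟨l, lt_of_lt_of_le hl hi⟩, hl, rfl⟩
    obtain ⟨g₀, hg₀, he₀⟩ := H450.UF.exists_flag_map0 (hform_sB hF n) he' hu
    obtain ⟨G₀, hG₀⟩ : ∃ G₀ : SIso (sB hF n), G₀ = ⟨g₀, hg₀⟩ := ⟨_, rfl⟩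
    have heG : ∀ i, (W F e' i).map (G₀.1 : (Fin n → F) →ₗ[F] (Fin n → F)) = W F u i := by
      rw [hG₀]; exact he₀
    have h1 := hperp (pi hF n G₀) (fun x => (f (G₀ • x) : ℂ)) ?_
    · unfold pr at h1
      rw [← h1, ← Equiv.sum_comp (MulAction.toPerm (pi hF n G₀) : Equiv.Perm X)]
      refine Finset.sum_congr rfl fun x _ => ?_
      rw [MulAction.toPerm_apply]
      change (f (pi hF n G₀ • x) : ℂ) * h (pi hF n G₀ • x) = h (pi hF n G₀ • x) * (f (G₀ • x) : ℂ)
      rw [hc]
      ring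
    · intro b hb x
      obtain ⟨Gb, hGb, hfl⟩ := hD b hb
      have h2 : b • x = Gb • x := by rw [hc, hGb]
      have h3 : G₀ • b • x = (G₀ * Gb * G₀⁻¹) • G₀ • x := by
        rw [h2, mul_smul, mul_smul, inv_smul_smul]
      have h4 : f (G₀ • b • x) = f (G₀ • x) := by
        rw [h3]
        refine hf _ (fun i => ?_) _
        have h5 : ∀ i, i ≤ j → (W F u i).map ((G₀ * Gb * G₀⁻¹).1 : (Fin n → F) →ₗ[F] (Fin n → F)) = W F u i := by
          intro i hi
          rw [map_mul', W_smul_of G₀ heG, map_mul', hWe i hi, hfl i, ← hWe i hi, heG]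
        rcases Nat.le_total i j with hi | hi
        · exact h5 i hi
        · rw [W_of_le u hi, ← W_of_le u le_rfl]
          exact h5 j le_rfl
      change ((f (G₀ • b • x) : ℝ) : ℂ) = ((f (G₀ • x) : ℝ) : ℂ)
      rw [h4]
  have hre : Orth (sB hF n) (fun x => (h x).re) := by
    intro j u f hu hf
    have h1 := congrArg Complex.re (key j u f hu hf)
    rw [Complex.re_sum, Complex.zero_re] at h1
    rw [← h1]
    exact Finset.sum_congr rfl fun x _ => (Complex.re_ofReal_mul _ _).symm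
  have him : Orth (sB hF n) (fun x => (h x).im) := by
    intro j u f hu hf
    have h1 := congrArg Complex.im (key j u f hu hf)
    rw [Complex.im_sum, Complex.zero_im] at h1
    rw [← h1]
    exact Finset.sum_congr rfl fun x _ => (Complex.im_ofReal_mul _ _).symm
  by_cases h0 : (fun x => (h x).re) = (0 : X → ℝ)
  · refine ⟨_, ?_, him⟩
    intro h1
    apply hne
    funext x
    exact Complex.ext (congrFun h0 x) (congrFun h1 x)
  · exact ⟨_, h0, hre⟩

include hc in
theorem stab_iff (x : X) (g : SIso (sB hF n)) :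
    g ∈ MulAction.stabilizer (SIso (sB hF n)) x ↔ pi hF n g ∈ MulAction.stabilizer (PSU n F q) x := by
  rw [MulAction.mem_stabilizer_iff, MulAction.mem_stabilizer_iff, hc]

include hc in
theorem pretransitive [MulAction.IsPretransitive (PSU n F q) X] : MulAction.IsPretransitive (SIso (sB hF n)) X := by
  refine ⟨fun x y => ?_⟩
  obtain ⟨g, hg⟩ := MulAction.exists_smul_eq (PSU n F q) x y
  obtain ⟨g', rfl⟩ := pi_surjective hF n g
  exact ⟨g', by rw [hc, hg]⟩

end Cfsg.Agent.H91.U
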