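import Cfsg.Agent.H91.U.Main
import Cfsg.Agent.H450.UF.Par

/-!
# Primitive rank three actions of `PSU` (helper91, S2196): transport along an isomorphism

`result_of` : the statement, from (B) (`TransIso`) and from the two orbit case.
-/

set_option autoImplicit false
set_option linter.unusedSectionVars false

namespace Cfsg.Agent.H91.U

open Matrix Cfsg Module RankThree

/-- primitive actions of rank 3 of `PSU` itself -/
theorem card_of {F : Type*} [Field F] [Fintype F] {n q : ℕ} (hF : Fintype.card F = q ^ 2) (hn : 6 ≤ n)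
    (hT : TransIso F q n) {X : Type*} [Fintype X] [MulAction (PSU n F q) X]
    [MulAction.IsPreprimitive (PSU n F q) X] (x : X)
    (h3 : Nat.card (MulAction.orbitRel.Quotient (MulAction.stabilizer (PSU n F q) x) X) = 3)
    (hTwo : ∀ (_ : MulAction (SIso (sB hF n)) X) (_ : MulAction.IsPretransitive (SIso (sB hF n)) X),
      IsCoatom (MulAction.stabilizer (SIso (sB hF n)) x) →
      Nat.card (MulAction.orbitRel.Quotient (MulAction.stabilizer (SIso (sB hF n)) x) X) ≤ 3 →
      ∀ r : X → ℝ, Orth (sB hF n) r → r ≠ 0 →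
      ∀ O : Set (Fin n → F), Orb (MulAction.stabilizer (SIso (sB hF n)) x) O → False) :
    Fintype.card X * (q ^ 2 - 1) = H950.isoNum q n := by
  have hnt : Nontrivial X := by
    by_contra hcon
    rw [not_nontrivial_iff_subsingleton] at hcon
    have h1 : Nat.card (MulAction.orbitRel.Quotient (MulAction.stabilizer (PSU n F q) x) X) ≤ 1 := by
      have : Subsingleton (MulAction.orbitRel.Quotient (MulAction.stabilizer (PSU n F q) x) X) := by
        refine ⟨fun a b => ?_⟩
        rw [← Quotient.out_eq a, ← Quotient.out_eq b, Subsingleton.elim a.out b.out]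
      exact Finite.card_le_one_iff_subsingleton.2 this
    omega
  refine main_of hF hn hT x h3 ?_ ?_
  · intro A hc h3' r hr0 hr O hO
    have htr := pretransitive hF hc
    exact hTwo A htr (isCoatom_stab hF hc x) h3'.le r hr hr0 O hO
  · intro A hc h3' p hp hpF U hU y hy
    exact H450.UF.card_of_fixed hF hc hn x h3' hU hy

theorem result_of {G X : Type*} [Group G] [MulAction G X] [Fintype X] {F : Type*} [Field F] [Fintype F] (n q : ℕ)
    (hn : 6 ≤ n) (hF : Fintype.card F = q ^ 2) (hT : TransIso F q n) (e : G ≃* Cfsg.PSU n F q)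
    (hprim : MulAction.IsPreprimitive G X) (x : X)
    (h3 : Nat.card (MulAction.orbitRel.Quotient ↥(MulAction.stabilizer G x) X) = 3)
    (hTwo : ∀ (_ : MulAction (SIso (sB hF n)) X) (_ : MulAction.IsPretransitive (SIso (sB hF n)) X),
      IsCoatom (MulAction.stabilizer (SIso (sB hF n)) x) →
      Nat.card (MulAction.orbitRel.Quotient (MulAction.stabilizer (SIso (sB hF n)) x) X) ≤ 3 →
      ∀ r : X → ℝ, Orth (sB hF n) r → r ≠ 0 →
      ∀ O : Set (Fin n → F), Orb (MulAction.stabilizer (SIso (sB hF n)) x) O → False) :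
    (Even n → Fintype.card X * (q ^ 2 - 1) = (q ^ n - 1) * (q ^ (n - 1) + 1)) ∧
    (Odd n → Fintype.card X * (q ^ 2 - 1) = (q ^ n + 1) * (q ^ (n - 1) - 1)) := by
  let _ : MulAction (PSU n F q) X := MulAction.compHom X e.symm.toMonoidHom
  have hc : ∀ (g : PSU n F q) (x : X), g • x = e.symm g • x := fun _ _ => rfl
  have hc' : ∀ (g : G) (x : X), e g • x = g • x := fun g x => by rw [hc, e.symm_apply_apply]
  let f : X →ₑ[(e : G → PSU n F q)] X := ⟨id, fun g x => (hc' g x).symm⟩
  have : MulAction.IsPreprimitive (PSU n F q) X :=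
    MulAction.IsPreprimitive.of_surjective (f := f) Function.surjective_id
  have key : Fintype.card X * (q ^ 2 - 1) = H950.isoNum q n := by
    refine card_of hF hn hT x ?_ hTwo
    rw [← h3]
    refine Nat.card_congr (Quotient.congr (Equiv.refl X) fun a b => ?_)
    change a ∈ MulAction.orbit _ b ↔ a ∈ MulAction.orbit _ b
    constructor
    · rintro ⟨⟨g, hg⟩, rfl⟩
      exact ⟨⟨e.symm g, hg⟩, rfl⟩
    · rintro ⟨⟨g, hg⟩, rfl⟩
      exact ⟨⟨e g, (hc' g x).trans hg⟩, hc' g b⟩
  rw [key]
  exact H450.UF.isoNum_eq q n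

end Cfsg.Agent.H91.U
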