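import Cfsg.Agent.H91.U.Dich
import Cfsg.Agent.H450.UF.Point
import Cfsg.Agent.H918.UBase

/-!
# Primitive rank three actions of `PSU` (helper91, S2196): the assembly

* `TransIso F q n` : (B) no maximal subgroup of order `≥ (|SU| / 3)^(1/2)` is transitive on the isotropic points;
* `main_of` : the number of points, from (B), the two orbit case and the parabolic case.
-/

set_option autoImplicit false
set_option linter.unusedSectionVars false

namespace Cfsg.Agent.H91.U

open Matrix Cfsg Module RankThree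
open Cfsg.Agent.H249 Cfsg.Agent.H249.Pair Cfsg.Agent.H918
open Cfsg.Agent.TitsThree Cfsg.Agent.TitsThree.KSideU Cfsg.Agent.TitsThree.KSideUDesc

/-- (B): no maximal subgroup of large order is transitive on the isotropic points -/
def TransIso (F : Type*) [Field F] (q n : ℕ) : Prop :=
  ∀ K : Subgroup (Matrix.GeneralLinearGroup (Fin n) F), Geo.IsMaximalIn (SUg n F q) K →
    Nat.card (SUg n F q) ≤ 3 * Nat.card K ^ 2 →
    (∀ v w : Fin n → F, v ≠ 0 → hermForm n F q v v = 0 → w ≠ 0 → hermForm n F q w w = 0 →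
      ∃ g ∈ K, ∃ c : F, (g : Matrix (Fin n) (Fin n) F) *ᵥ v = c • w) → False

variable {F : Type*} [Field F] [Fintype F] {q n : ℕ} (hF : Fintype.card F = q ^ 2)

/-- `SIso` as a group of matrices -/
noncomputable def toGL (n : ℕ) : SIso (sB hF n) →* Matrix.GeneralLinearGroup (Fin n) F :=
  (suHom n F q).comp ((ofRange F q n).toMonoidHom.comp (Subgroup.inclusion (SIso_sB hF n).le))

theorem toGL_mulVec (g : SIso (sB hF n)) (v : Fin n → F) :
    ((toGL hF n g : Matrix.GeneralLinearGroup (Fin n) F) : Matrix (Fin n) (Fin n) F) *ᵥ v = g.1 v := by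
  have h1 := toLin_ofRange (F := F) (q := q) (N := n) (Subgroup.inclusion (SIso_sB hF n).le g)
  have h2 := congrArg (fun f : (Fin n → F) ≃ₗ[F] (Fin n → F) => f v) h1
  exact h2

theorem toGL_injective : Function.Injective (toGL hF n) :=
  suHom_injective.comp ((ofRange F q n).injective.comp (Subgroup.inclusion_injective _))

theorem toGL_range : (toGL hF n).range = SUg n F q := by
  rw [← range_suHom]
  apply le_antisymm
  · rintro _ ⟨g, rfl⟩
    exact ⟨_, rfl⟩
  · rintro _ ⟨A, rfl⟩
    obtain ⟨g, rfl⟩ := (ofRange F q n).surjective A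
    exact ⟨⟨g.1, (SIso_sB hF n).ge g.2⟩, rfl⟩

instance finite_SIso : Finite (SIso (sB hF n)) := by
  have hfin : Finite ((Fin n → F) ≃ₗ[F] (Fin n → F)) :=
    Finite.of_injective (fun g : (Fin n → F) ≃ₗ[F] (Fin n → F) => (g : (Fin n → F) → _)) DFunLike.coe_injective
  infer_instance

section

variable {X : Type*} [Fintype X] [MulAction (SIso (sB hF n)) X] [MulAction.IsPretransitive (SIso (sB hF n)) X] (x₀ : X)

theorem order_bound
    (h3 : Nat.card (MulAction.orbitRel.Quotient (MulAction.stabilizer (SIso (sB hF n)) x₀) X) = 3) :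
    Nat.card (SIso (sB hF n)) ≤ 3 * (Nat.card (MulAction.stabilizer (SIso (sB hF n)) x₀)) ^ 2 := by
  set K := MulAction.stabilizer (SIso (sB hF n)) x₀ with hK
  have h1 : Nat.card X ≤ Nat.card K * 3 := by
    rw [← h3, ← Nat.card_prod]
    have : Finite (MulAction.orbitRel.Quotient K X) := Quotient.finite _
    refine Nat.card_le_card_of_surjective
      (fun p : K × MulAction.orbitRel.Quotient K X => p.1 • (Quotient.out p.2 : X)) ?_
    intro x
    have h2 : x ∈ MulAction.orbit K (Quotient.out (Quotient.mk'' x : MulAction.orbitRel.Quotient K X)) :=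
      Quotient.exact' (Quotient.out_eq' (Quotient.mk'' x : MulAction.orbitRel.Quotient K X)).symm
    obtain ⟨g, hg⟩ := h2
    exact ⟨(g, Quotient.mk'' x), hg⟩
  have h4 := K.index_mul_card
  rw [hK, MulAction.index_stabilizer_of_transitive, ← hK] at h4
  rw [← h4]
  calc Nat.card X * Nat.card K ≤ (Nat.card K * 3) * Nat.card K := Nat.mul_le_mul_right _ h1
    _ = _ := by ring

/-- the stabiliser is not transitive on the isotropic points -/
theorem not_trans (hmax : IsCoatom (MulAction.stabilizer (SIso (sB hF n)) x₀))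
    (h3 : Nat.card (MulAction.orbitRel.Quotient (MulAction.stabilizer (SIso (sB hF n)) x₀) X) = 3)
    (hT : TransIso F q n)
    (htr : ∀ v w : Fin n → F, v ≠ 0 → sB hF n v v = 0 → w ≠ 0 → sB hF n w w = 0 →
      ∃ g ∈ MulAction.stabilizer (SIso (sB hF n)) x₀, ∃ c : F, g.1 v = c • w) : False := by
  set K := MulAction.stabilizer (SIso (sB hF n)) x₀ with hK
  refine hT (K.map (toGL hF n)) ⟨?_, ?_⟩ ?_ ?_
  · rw [← toGL_range hF, MonoidHom.range_eq_map]
    exact (Subgroup.map_lt_map_iff_of_injective (toGL_injective hF)).2 (lt_top_iff_ne_top.2 hmax.1)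
  · intro M h1 h2
    rw [← toGL_range hF] at h2
    have h3' : K ≤ M.comap (toGL hF n) := Subgroup.map_le_iff_le_comap.1 h1
    have h4 : (M.comap (toGL hF n)).map (toGL hF n) = M := Subgroup.map_comap_eq_self h2
    rcases hmax.le_iff.1 h3' with h5 | h5
    · right
      rw [← h4, h5, ← MonoidHom.range_eq_map, toGL_range]
    · left
      rw [← h4, h5]
  · have h1 := order_bound hF x₀ h3
    rw [← hK] at h1
    have e1 : Nat.card (SUg n F q) = Nat.card (SIso (sB hF n)) := by
      rw [← toGL_range hF]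
      exact Nat.card_congr (MonoidHom.ofInjective (toGL_injective hF)).toEquiv.symm
    have e2 : Nat.card (K.map (toGL hF n)) = Nat.card K :=
      Nat.card_congr (K.equivMapOfInjective _ (toGL_injective hF)).toEquiv.symm
    rw [e1, e2]
    exact h1
  · intro v w hv hvv hw hww
    obtain ⟨g, hg, c, e⟩ := htr v w hv hvv hw hww
    exact ⟨_, ⟨g, hg, rfl⟩, c, by rw [toGL_mulVec]; exact e⟩

/-- the case of a function `r` -/
theorem card_of_orth (hn : 6 ≤ n) (hmax : IsCoatom (MulAction.stabilizer (SIso (sB hF n)) x₀))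
    (h3 : Nat.card (MulAction.orbitRel.Quotient (MulAction.stabilizer (SIso (sB hF n)) x₀) X) = 3)
    (hT : TransIso F q n)
    (hTwo : ∀ O : Set (Fin n → F), Orb (MulAction.stabilizer (SIso (sB hF n)) x₀) O → False) :
    Fintype.card X * (q ^ 2 - 1) = H950.isoNum q n := by
  classical
  have hB := hform_sB hF n
  have hV := finrank_std (F := F) n
  set K := MulAction.stabilizer (SIso (sB hF n)) x₀ with hK
  let R : (Fin n → F) → (Fin n → F) → Prop := fun v w => ∃ g ∈ K, ∃ c : F, g.1 v = c • w
  have hRsymm : ∀ v w, v ≠ 0 → R v w → R w v := by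
    rintro v w hv ⟨g, hg, c, e⟩
    have hc : c ≠ 0 := by
      rintro rfl
      rw [zero_smul] at e
      exact hv ((LinearEquiv.map_eq_zero_iff g.1).1 e)
    refine ⟨g⁻¹, inv_mem hg, c⁻¹, ?_⟩
    have h1 : g⁻¹ • (g • v) = v := inv_smul_smul g v
    have h2 : g • v = c • w := e
    rw [h2] at h1
    have h3 : g⁻¹ • (c • w) = c • (g⁻¹ • w) := map_smul g⁻¹.1 c w
    rw [h3] at h1
    change g⁻¹ • w = c⁻¹ • v
    rw [← h1, smul_smul, inv_mul_cancel₀ hc, one_smul]
  have hRtrans : ∀ u v w, R u v → R v w → R u w := by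
    rintro u v w ⟨g, hg, c, e⟩ ⟨g', hg', c', e'⟩
    refine ⟨g' * g, mul_mem hg' hg, c * c', ?_⟩
    change g'.1 (g.1 u) = _
    rw [e, map_smul, e', smul_smul]
  by_cases hTr : ∀ v w, v ≠ 0 → sB hF n v v = 0 → w ≠ 0 → sB hF n w w = 0 → R v w
  · -- transitive on points
    exact (not_trans hF x₀ hmax h3 hT hTr).elim
  · push Not at hTr
    obtain ⟨v, w, hv, hvv, hw, hww, hvw⟩ := hTr
    by_cases h2 : ∀ u, u ≠ 0 → sB hF n u u = 0 → R u v ∨ R u w
    · -- two orbits
      exfalso
      let O : Set (Fin n → F) := {u | (u ≠ 0 ∧ sB hF n u u = 0) ∧ R u v}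
      have hwO : w ∉ O := fun h => hvw (hRsymm w v hw h.2)
      refine hTwo O
        { inv := by
            intro g hg u
            have h0 : (g • u ≠ 0 ∧ sB hF n (g • u) (g • u) = 0) ↔ (u ≠ 0 ∧ sB hF n u u = 0) := by
              rw [Ne, smul_eq_zero', B_smul]
            have hR : R u (g • u) := ⟨g, hg, 1, (one_smul F _).symm⟩
            have hR' : R (g • u) u := ⟨g⁻¹, inv_mem hg, 1, by
              rw [one_smul]
              exact inv_smul_smul g u⟩
            exact ⟨fun h => ⟨h0.1 h.1, hRtrans _ _ _ hR h.2⟩, fun h => ⟨h0.2 h.1, hRtrans _ _ _ hR' h.2⟩⟩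
          smul := by
            intro c hc u
            have h0 : (c • u ≠ 0 ∧ sB hF n (c • u) (c • u) = 0) ↔ (u ≠ 0 ∧ sB hF n u u = 0) := by
              rw [smul_ne_zero_iff, smul_left', smul_right', mul_eq_zero, mul_eq_zero, map_eq_zero]
              simp [hc]
            have hR : R u (c • u) := ⟨1, one_mem K, c⁻¹, by
              rw [smul_smul, inv_mul_cancel₀ hc, one_smul]; rfl⟩
            have hR' : R (c • u) u := ⟨1, one_mem K, c, rfl⟩
            exact ⟨fun h => ⟨h0.1 h.1, hRtrans _ _ _ hR h.2⟩,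
              fun h => ⟨h0.2 h.1, hRtrans _ _ _ hR' h.2⟩⟩
          zero := fun h => h.1.1 rfl
          iso := fun v hv => hv.1.2
          ne := ⟨v, ⟨hv, hvv⟩, 1, one_mem K, 1, (one_smul F _).symm⟩
          ne' := ⟨w, hw, hww, hwO⟩
          tr := fun a ha b hb => hRtrans _ _ _ ha.2 (hRsymm b v hb.1.1 hb.2)
          tr' := by
            intro a ha haa haO b hb hbb hbO
            have ha' : R a w := (h2 a ha haa).resolve_left fun h => haO ⟨⟨ha, haa⟩, h⟩
            have hb' : R b w := (h2 b hb hbb).resolve_left fun h => hbO ⟨⟨hb, hbb⟩, h⟩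
            exact hRtrans _ _ _ ha' (hRsymm b w hb hb') }
    · push Not at h2
      obtain ⟨u, hu, huu, huv, huw⟩ := h2
      have h7 := H450.UF.card_of_three hF hB (by rw [hV]; exact hn) x₀ h3.le (v := ![v, w, u]) (by
          intro i
          fin_cases i
          · exact hv
          · exact hw
          · exact hu) (by
          intro i
          fin_cases i
          · exact hvv
          · exact hww
          · exact huu) (by
          have h4 : ¬ R w v := fun h => hvw (hRsymm w v hw h)
          have h5 : ¬ R v u := fun h => huv (hRsymm v u hv h)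
          have h6 : ¬ R w u := fun h => huw (hRsymm w u hw h)
          intro i j h
          fin_cases i <;> fin_cases j
          · rfl
          · exact absurd h hvw
          · exact absurd h h5
          · exact absurd h h4
          · rfl
          · exact absurd h h6
          · exact absurd h huv
          · exact absurd h huw
          · rfl)
      rw [hV] at h7
      exact h7

end

/-- the stabiliser in `SIso` is maximal -/
theorem isCoatom_stab {X : Type*} [MulAction (PSU n F q) X] [MulAction (SIso (sB hF n)) X]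
    (hc : ∀ (g : SIso (sB hF n)) (x : X), g • x = pi hF n g • x) [Nontrivial X]
    [MulAction.IsPreprimitive (PSU n F q) X] (x₀ : X) : IsCoatom (MulAction.stabilizer (SIso (sB hF n)) x₀) := by
  have h1 := MulAction.IsPreprimitive.isCoatom_stabilizer_of_isPreprimitive (G := PSU n F q) x₀
  have h2 : MulAction.stabilizer (SIso (sB hF n)) x₀ = (MulAction.stabilizer (PSU n F q) x₀).comap (pi hF n) := by
    ext g
    rw [MulAction.mem_stabilizer_iff, Subgroup.mem_comap, MulAction.mem_stabilizer_iff, hc]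
  rw [h2]
  exact Subgroup.isCoatom_comap_of_surjective (pi_surjective hF n) h1

/-- **The assembly.** -/
theorem main_of (hn : 6 ≤ n) (hT : TransIso F q n) {X : Type*} [Fintype X]
    [MulAction (PSU n F q) X] [MulAction.IsPreprimitive (PSU n F q) X] (x₀ : X)
    (h3 : Nat.card (MulAction.orbitRel.Quotient (MulAction.stabilizer (PSU n F q) x₀) X) = 3)
    (hTwo : ∀ (_ : MulAction (SIso (sB hF n)) X), (∀ (g : SIso (sB hF n)) (x : X), g • x = pi hF n g • x) →
      Nat.card (MulAction.orbitRel.Quotient (MulAction.stabilizer (SIso (sB hF n)) x₀) X) = 3 →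
      ∀ r : X → ℝ, r ≠ 0 → Orth (sB hF n) r →
      ∀ O : Set (Fin n → F), Orb (MulAction.stabilizer (SIso (sB hF n)) x₀) O → False)
    (hPar : ∀ (_ : MulAction (SIso (sB hF n)) X), (∀ (g : SIso (sB hF n)) (x : X), g • x = pi hF n g • x) →
      Nat.card (MulAction.orbitRel.Quotient (MulAction.stabilizer (SIso (sB hF n)) x₀) X) = 3 →
      ∀ (p : ℕ) (_ : Fact p.Prime) (_ : CharP F p) (U : Subgroup (PSU n F q)), ¬ p ∣ U.index →
      ∀ x : X, (∀ u ∈ U, u • x = x) → Fintype.card X * (q ^ 2 - 1) = H950.isoNum q n) :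
    Fintype.card X * (q ^ 2 - 1) = H950.isoNum q n := by
  classical
  let A : MulAction (SIso (sB hF n)) X := MulAction.compHom X (pi hF n)
  have hc : ∀ (g : SIso (sB hF n)) (x : X), g • x = pi hF n g • x := fun _ _ => rfl
  have htr := pretransitive hF hc
  have h3' : Nat.card (MulAction.orbitRel.Quotient (MulAction.stabilizer (SIso (sB hF n)) x₀) X) = 3 := by
    rw [← h3]
    refine Nat.card_congr (Quotient.congr (Equiv.refl X) fun a b => ?_)
    change a ∈ MulAction.orbit _ b ↔ a ∈ MulAction.orbit _ b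
    constructor
    · rintro ⟨⟨g, hg⟩, rfl⟩
      exact ⟨⟨pi hF n g, (stab_iff hF hc x₀ g).1 hg⟩, rfl⟩
    · rintro ⟨⟨g, hg⟩, rfl⟩
      obtain ⟨g', rfl⟩ := pi_surjective hF n g
      exact ⟨⟨g', (stab_iff hF hc x₀ g').2 hg⟩, rfl⟩
  have hnt : Nontrivial X := by
    by_contra hcon
    rw [not_nontrivial_iff_subsingleton] at hcon
    have h1 : Nat.card (MulAction.orbitRel.Quotient (MulAction.stabilizer (SIso (sB hF n)) x₀) X) ≤ 1 := by
      have : Subsingleton (MulAction.orbitRel.Quotient (MulAction.stabilizer (SIso (sB hF n)) x₀) X) := by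
        refine ⟨fun a b => ?_⟩
        rw [← Quotient.out_eq a, ← Quotient.out_eq b, Subsingleton.elim a.out b.out]
      exact Finite.card_le_one_iff_subsingleton.2 this
    omega
  obtain ⟨p, hp⟩ := CharP.exists F
  have hpp : Fact p.Prime := ⟨CharP.char_is_prime F p⟩
  obtain ⟨m, e, D, -, hm2, he, hgen, hE, hU, hfix⟩ := Cfsg.Agent.H91.UBorel.exists_dat hF (n := n) (by omega) p
  by_cases hG : H249.Pair.Gen (PSU n F q) (Ω := X) D.B
  · have : Nonempty X := ⟨x₀⟩
    have : Finite (PSU n F q) := Finite.of_surjective _ (pi_surjective hF n)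
    obtain ⟨x, hx⟩ := H249.exists_fixed D hG hgen hE
    exact hPar A hc h3' p hpp hp _ hU x hx
  · obtain ⟨r, hr0, hr⟩ := exists_orth hF hc hm2 he D hfix hG
    exact card_of_orth hF x₀ hn (isCoatom_stab hF hc x₀) h3' hT (hTwo A hc h3' r hr0 hr)

end Cfsg.Agent.H91.U
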